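import Cfsg.Agent.T3F.Tb

/-! A faster multiplication for the table of the Sylow 3-subgroup of the Thompson group. -/

set_option autoImplicit false
set_option maxRecDepth 100000
set_option Elab.async false

namespace Cfsg.Agent.T3F

open Cfsg.Agent.Comp Cfsg.Agent.X32

noncomputable def fE (x y : ℕ) : ℕ :=
  force x fun x => force (Nat.div y (nat_lit 243)) fun w =>
    force (cT1 (Nat.add (Nat.mul (nat_lit 81) (Nat.div x (nat_lit 243))) w)) fun u =>
      force (Nat.mod u (nat_lit 243)) fun r => Nat.add (Nat.sub u r)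
        (adJ (adJ r (cT2 (Nat.add (Nat.mul (nat_lit 243) w) (Nat.mod x (nat_lit 243)))))
          (Nat.mod y (nat_lit 243)))

noncomputable def fS (x y : ℕ) : ℕ :=
  force x fun x => force y fun y => force (Nat.div y (nat_lit 19683)) fun b =>
    force (Nat.mod y (nat_lit 19683)) fun y' => Nat.add
      (Nat.mul (Nat.mod (Nat.add (Nat.div x (nat_lit 19683)) b) (nat_lit 3)) (nat_lit 19683))
      (fE (c0 (Nat.add (Nat.mul b (nat_lit 19683)) (Nat.mod x (nat_lit 19683)))) y')

theorem s1 : ∀ v < 81, ∀ j < 243, A9.mu (243 * v) j = 243 * v + j ∧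
    A9.mu j (243 * v) = A9.mu (243 * v) (cT2 (243 * v + j)) ∧ cT2 (243 * v + j) < 243 := by
  have : (allB 81 fun v => force (Nat.mul 243 v) fun q => allB 243 fun j =>
      and' (Nat.beq (A9.mu q j) (Nat.add q j)) (force (cT2 (Nat.add q j)) fun k =>
        and' (Nat.beq (A9.mu j q) (A9.mu q k)) (Nat.blt k 243))) = true := by decide +kernel
  simp only [allB_iff, beq_iff, force_eq, and'_eq_true, blt_iff] at this
  exact this

theorem s2 : ∀ v < 81, ∀ w < 81, A9.mu (243 * v) (243 * w) = cT1 (81 * v + w) := by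
  have : (allB 81 fun v => allB 81 fun w => Nat.beq (A9.mu (Nat.mul 243 v) (Nat.mul 243 w))
      (cT1 (Nat.add (Nat.mul 81 v) w))) = true := by decide +kernel
  simp only [allB_iff, beq_iff] at this
  exact this

theorem s3 : ∀ j < 243, ∀ k < 243, A9.mu j k = adJ j k ∧ adJ j k < 243 := by
  have : (allB 243 fun j => allB 243 fun k => force (adJ j k) fun u =>
      and' (Nat.beq (A9.mu j k) u) (Nat.blt u 243)) = true := by decide +kernel
  simpa only [allB_iff, beq_iff, force_eq, and'_eq_true, blt_iff] using this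

theorem fE_eq {x y : ℕ} (hx : x < 19683) (hy : y < 19683) : fE x y = A9.mu x y := by
  have ok := f9.out
  have hn : A9.n = 19683 := rfl
  have as := ok.assoc
  have lt := ok.lt
  rw [hn] at as lt
  have sp : ∀ z < 19683, z = A9.mu (243 * (z / 243)) (z % 243) := fun z hz => by
    rw [(s1 _ (by omega) _ (by omega)).1]; omega
  obtain ⟨v, hv, j, hj, rfl⟩ : ∃ v < 81, ∃ j < 243, x = 243 * v + j := ⟨x / 243, by omega, x % 243, by omega, by omega⟩
  obtain ⟨w, hw, k, hk, rfl⟩ : ∃ v < 81, ∃ j < 243, y = 243 * v + j := ⟨y / 243, by omega, y % 243, by omega, by omega⟩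
  have e : fE (243 * v + j) (243 * w + k) = cT1 (81 * v + w) - cT1 (81 * v + w) % 243 +
      adJ (adJ (cT1 (81 * v + w) % 243) (cT2 (243 * w + j))) k := by
    simp only [fE, force_eq]
    change cT1 (81 * ((243 * v + j) / 243) + (243 * w + k) / 243) - cT1 (81 * ((243 * v + j) / 243) +
      (243 * w + k) / 243) % 243 + adJ (adJ (cT1 (81 * ((243 * v + j) / 243) + (243 * w + k) / 243) % 243)
      (cT2 (243 * ((243 * w + k) / 243) + (243 * v + j) % 243))) ((243 * w + k) % 243) = _
    rw [show (243 * v + j) / 243 = v by omega, show (243 * w + k) / 243 = w by omega,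
      show (243 * v + j) % 243 = j by omega, show (243 * w + k) % 243 = k by omega]
  obtain ⟨-, h2, h3⟩ := s1 w hw j hj
  have hu := lt (243 * v) (by omega) (243 * w) (by omega)
  rw [e, ← (s1 v hv j hj).1, ← (s1 w hw k hk).1, as _ (by omega) _ (by omega) _ (lt _ (by omega) _ (by omega)),
    ← as j (by omega) _ (by omega) _ (by omega), h2, as _ (by omega) _ (by omega) _ (by omega),
    ← as (243 * v) (by omega) _ (by omega) _ (lt _ (by omega) _ (by omega)), ← s2 v hv w hw]
  generalize A9.mu (243 * v) (243 * w) = u at hu ⊢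
  generalize cT2 (243 * w + j) = i at h3 ⊢
  have h4 := s3 (u % 243) (by omega) i h3
  have h5 := s3 _ h4.2 k hk
  conv_rhs => rw [sp u hu]
  rw [as _ (by omega) _ (by omega) _ (lt _ (by omega) _ (by omega)),
    ← as (u % 243) (by omega) _ (by omega) _ (by omega), h4.1, h5.1, (s1 _ (by omega) _ h5.2).1]
  omega

/-- fast table of `E1` -/
noncomputable def F9 : Tab := ⟨A9.n, fE, A9.iv⟩

instance f9' : Fact F9.OK := ⟨ok_congr f9.out fun _ ha _ hb => fE_eq ha hb⟩

noncomputable def ST : Tab := up F9 (nat_lit 59049) c0 id ivf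

theorem w6561 : hfChk F9 c0 [6561] = true := by decide +kernel
theorem w2187 : hfChk F9 c0 [2187] = true := by decide +kernel
theorem w729 : hfChk F9 c0 [729] = true := by decide +kernel
theorem w243 : hfChk F9 c0 [243] = true := by decide +kernel
theorem w81 : hfChk F9 c0 [81] = true := by decide +kernel
theorem w27 : hfChk F9 c0 [27] = true := by decide +kernel
theorem w9 : hfChk F9 c0 [9] = true := by decide +kernel
theorem w3 : hfChk F9 c0 [3] = true := by decide +kernel
theorem w1 : hfChk F9 c0 [1] = true := by decide +kernel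
theorem w0 : upChk F9 59049 c0 id 0 [6561, 2187, 729, 243, 81, 27, 9, 3, 1] = true := by decide +kernel
theorem u10 : UpOK F9 59049 c0 id ivf 0 [6561, 2187, 729, 243, 81, 27, 9, 3, 1] :=
  upOK_of w0 (hfChk_cons w6561 (hfChk_cons w2187 (hfChk_cons w729 (hfChk_cons w243 (hfChk_cons w81
    (hfChk_cons w27 (hfChk_cons w9 (hfChk_cons w3 w1)))))))) (by decide +kernel)

instance f10 : Fact ST.OK := ⟨u10.ok⟩

theorem fS_eq : ∀ a < ST.n, ∀ b < ST.n, fS a b = ST.mu a b := by
  intro a ha b hb
  change a < 59049 at ha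
  change b < 59049 at hb
  change _ = upMu 19683 c0 id fE a b
  rw [upMu_eq]
  simp only [fS, force_eq]
  change (a / 19683 + b / 19683) % 3 * 19683 + fE (c0 (b / 19683 * 19683 + a % 19683)) (b % 19683) = _
  split_ifs with h
  · rw [Nat.mod_eq_of_lt h]
  · rw [show (a / 19683 + b / 19683) % 3 = a / 19683 + b / 19683 - 3 by omega]; rfl

/-- the fast table -/
noncomputable def FT : Tab := ⟨nat_lit 59049, fS, ivf⟩

instance fF : Fact FT.OK := ⟨ok_congr f10.out fS_eq⟩

/-- the model of the Sylow 3-subgroup -/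
abbrev G : Type := TG FT

/-- slow and fast table give the same group -/
noncomputable def slowEquiv : G ≃* TG ST where
  toFun x := ⟨x.v, x.lt⟩
  invFun x := ⟨x.v, x.lt⟩
  left_inv _ := rfl
  right_inv _ := rfl
  map_mul' a b := TG.ext (fS_eq _ a.lt _ b.lt)

end Cfsg.Agent.T3F
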