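import Cfsg.Agent.T3F.Fast
import Cfsg.Agent.Comp.BitWord

/-! The polycyclic presentation of the model: homomorphisms from `G`. -/

set_option autoImplicit false
set_option maxRecDepth 100000
set_option Elab.async false

namespace Cfsg.Agent.T3F

open Cfsg.Agent.Comp Cfsg.Agent.X32 Cfsg.Agent.Comp.BN

/-- the normal form word of the number `n < 3^k` -/
def wd : ℕ → ℕ → List ℕ
  | 0, _ => []
  | k + 1, n => List.replicate (n / 3 ^ k) k ++ wd k (n % 3 ^ k)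

variable {K : Type*} [Group K] {g : ℕ → K}

def HomP (g : ℕ → K) (k : ℕ) (T : Tab) [Fact T.OK] : Prop := ∃ φ : TG T →* K, ∀ x, φ x = ev g (wd k x.v)

theorem ev_rep (g : ℕ → K) (a k : ℕ) : ev g (List.replicate a k) = g k ^ a := by
  simp [ev]

theorem HomP.up {T : Tab} [hT : Fact T.OK] {n : ℕ} {t cf iv : ℕ → ℕ} {c : ℕ} {gs : List ℕ} {k : ℕ}
    (h : UpOK T n t cf iv c gs) [hU : Fact (up T n t cf iv).OK] (hk : T.n = 3 ^ k) (hp : HomP g k T)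
    (h1 : ∀ j ∈ gs, ev g (wd k j ++ [k]) = ev g (k :: wd k (t (T.n + j))))
    (h2 : ev g [k, k, k] = ev g (wd k c)) : HomP g (k + 1) (up T n t cf iv) := by
  obtain ⟨φ, hφ⟩ := hp
  obtain ⟨ψ, hψ⟩ := h.hom φ (g k) (fun j hj => by
      have := h1 j hj
      rw [ev_append, ev_cons, ev_cons, ev_nil, mul_one] at this
      rw [hφ, hφ, e_val (h.gl j hj), e_val (h.lt _ (h.gl j hj)), this])
    (by rw [hφ, e_val h.cl, ← h2]; simp [pow_three])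
  refine ⟨ψ, fun u => ?_⟩
  obtain ⟨a, ha, x, hu⟩ := h.split u.lt
  have hx := x.lt
  rw [hψ a ha x u hu, hφ, wd, ev_append, ev_rep, hu, ← hk, add_comm, Nat.add_mul_div_right _ _ hT.out.pos,
    Nat.div_eq_of_lt hx, zero_add, Nat.add_mul_mod_self_right, Nat.mod_eq_of_lt hx]

theorem HomP.congr {T : Tab} [hT : Fact T.OK] {mu iv : ℕ → ℕ → ℕ} {k : ℕ} [hU : Fact (⟨T.n, mu, iv 0⟩ : Tab).OK]
    (e : ∀ a < T.n, ∀ b < T.n, mu a b = T.mu a b) (hp : HomP g k T) : HomP g k ⟨T.n, mu, iv 0⟩ := by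
  obtain ⟨φ, hφ⟩ := hp
  refine ⟨MonoidHom.mk' (fun x => φ ⟨x.v, x.lt⟩) fun a b => ?_, fun x => hφ _⟩
  rw [← map_mul]
  exact congrArg φ (TG.ext (e _ a.lt _ b.lt))

/-- the relations: pairs of words -/
def rels : List (List ℕ × List ℕ) :=
  [([0, 0, 0], []),
   ([0, 1], [1, 0]),
   ([1, 1, 1], []),
   ([1, 2], [2, 1]),
   ([0, 2], [2, 0]),
   ([2, 2, 2], []),
   ([2, 3], [3, 2]),
   ([1, 3], [3, 1]),
   ([0, 3], [3, 0]),
   ([3, 3, 3], []),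
   ([3, 4], [4, 3]),
   ([2, 4], [4, 2]),
   ([1, 4], [4, 1]),
   ([0, 4], [4, 0]),
   ([4, 4, 4], []),
   ([4, 5], [5, 4, 1, 1]),
   ([3, 5], [5, 3, 0]),
   ([2, 5], [5, 2]),
   ([1, 5], [5, 1]),
   ([0, 5], [5, 0]),
   ([5, 5, 5], [0, 0]),
   ([5, 6], [6, 5, 2]),
   ([4, 6], [6, 4, 0, 0]),
   ([3, 6], [6, 3]),
   ([2, 6], [6, 2]),
   ([1, 6], [6, 1]),
   ([0, 6], [6, 0]),
   ([6, 6, 6], []),
   ([6, 7], [7, 6, 3, 3, 1, 1]),
   ([5, 7], [7, 5]),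
   ([4, 7], [7, 4]),
   ([3, 7], [7, 3, 1, 1]),
   ([2, 7], [7, 2, 0]),
   ([1, 7], [7, 1]),
   ([0, 7], [7, 0]),
   ([7, 7, 7], [1, 1]),
   ([7, 8], [8, 7, 4, 4]),
   ([6, 8], [8, 6, 4, 2, 1, 1, 0]),
   ([5, 8], [8, 5, 3, 3, 0]),
   ([4, 8], [8, 4]),
   ([3, 8], [8, 3]),
   ([2, 8], [8, 2, 1]),
   ([1, 8], [8, 1]),
   ([0, 8], [8, 0]),
   ([8, 8, 8], []),
   ([8, 9], [9, 8, 7, 7, 6, 5, 5, 4, 3, 1, 0]),
   ([7, 9], [9, 7, 5, 5, 1, 1, 0]),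
   ([6, 9], [9, 6, 0]),
   ([5, 9], [9, 5, 1, 1, 0, 0]),
   ([4, 9], [9, 4, 3, 2]),
   ([3, 9], [9, 3, 2, 2]),
   ([2, 9], [9, 2]),
   ([1, 9], [9, 1, 0, 0]),
   ([0, 9], [9, 0]),
   ([9, 9, 9], [])]

theorem exists_hom (h : ∀ r ∈ rels, ev g r.1 = ev g r.2) : ∃ φ : G →* K, ∀ x, φ x = ev g (wd 10 x.v) := by
  have key : ∀ (k : ℕ) (t : ℕ → ℕ) (gs : List ℕ), (∀ j ∈ gs, (wd k j ++ [k], k :: wd k (t j)) ∈ rels) →
      ∀ j ∈ gs, ev g (wd k j ++ [k]) = ev g (k :: wd k (t j)) := fun k t gs h' j hj => h _ (h' j hj)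
  have cu : ∀ k c : ℕ, ([k, k, k], wd k c) ∈ rels → ev g [k, k, k] = ev g (wd k c) := fun k c h' => h _ h'
  have p0 : HomP g 0 B0 := ⟨1, fun _ => rfl⟩
  have p1 : HomP g 1 B1 := HomP.up (hT := f0) (hU := f1) u1 rfl p0 (by simp) (cu _ _ (by decide +kernel))
  have p2 : HomP g 2 B2 := HomP.up (hT := f1) (hU := f2) u2 rfl p1 (key _ _ _ (by decide +kernel)) (cu _ _ (by decide +kernel))
  have p3 : HomP g 3 B3 := HomP.up (hT := f2) (hU := f3) u3 rfl p2 (key _ _ _ (by decide +kernel)) (cu _ _ (by decide +kernel))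
  have p4 : HomP g 4 B4 := HomP.up (hT := f3) (hU := f4) u4 rfl p3 (key _ _ _ (by decide +kernel)) (cu _ _ (by decide +kernel))
  have p5 : HomP g 5 B5 := HomP.up (hT := f4) (hU := f5) u5 rfl p4 (key _ _ _ (by decide +kernel)) (cu _ _ (by decide +kernel))
  have q5 : HomP g 5 A5 := HomP.congr (iv := fun _ => B5.iv) (hT := f5) (hU := f5') adJ_eq p5
  have p6 : HomP g 6 A6 := HomP.up (hT := f5') (hU := f6) u6 rfl q5 (key _ _ _ (by decide +kernel)) (cu _ _ (by decide +kernel))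
  have p7 : HomP g 7 A7 := HomP.up (hT := f6) (hU := f7) u7 rfl p6 (key _ _ _ (by decide +kernel)) (cu _ _ (by decide +kernel))
  have p8 : HomP g 8 A8 := HomP.up (hT := f7) (hU := f8) u8 rfl p7 (key _ _ _ (by decide +kernel)) (cu _ _ (by decide +kernel))
  have p9 : HomP g 9 A9 := HomP.up (hT := f8) (hU := f9) u9 rfl p8 (key _ _ _ (by decide +kernel)) (cu _ _ (by decide +kernel))
  have q9 : HomP g 9 F9 := HomP.congr (iv := fun _ => A9.iv) (hT := f9) (hU := f9') (fun _ ha _ hb => fE_eq ha hb) p9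
  have p10 : HomP g 10 ST :=
    HomP.up (hT := f9') (hU := f10) u10 rfl q9 (key _ _ _ (by decide +kernel)) (cu _ _ (by decide +kernel))
  obtain ⟨φ, hφ⟩ := p10
  exact ⟨φ.comp slowEquiv.toMonoidHom, fun x => hφ _⟩

end Cfsg.Agent.T3F
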