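import Cfsg.Agent.X32.Tab

/-! Cyclic extensions of degree three of table groups. -/

set_option autoImplicit false

namespace Cfsg.Agent.T3F

open Cfsg.Agent.Comp Cfsg.Agent.X32

/-- 16-bit table lookup -/
noncomputable def lk (t i : ℕ) : ℕ :=
  Nat.land (Nat.shiftRight t (Nat.shiftLeft i (nat_lit 4))) (nat_lit 65535)

/-- 8-bit table lookup -/
noncomputable def lk8 (t i : ℕ) : ℕ :=
  Nat.land (Nat.shiftRight t (Nat.shiftLeft i (nat_lit 3))) (nat_lit 255)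

/-- `(g^a x)(g^b y) = g^(a+b) (g^-b x g^b) y`, with `g^3 = c` -/
noncomputable def upMu (M : ℕ) (t cf : ℕ → ℕ) (mu : ℕ → ℕ → ℕ) (x y : ℕ) : ℕ :=
  force x fun x => force y fun y => force (Nat.div y M) fun b =>
    force (Nat.add (Nat.div x M) b) fun s =>
      force (mu (t (Nat.add (Nat.mul b M) (Nat.mod x M))) (Nat.mod y M)) fun p =>
        ite' (Nat.blt s (nat_lit 3)) (Nat.add (Nat.mul s M) p)
          (Nat.add (Nat.mul (Nat.sub s (nat_lit 3)) M) (cf p))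

theorem upMu_eq (M : ℕ) (t cf : ℕ → ℕ) (mu : ℕ → ℕ → ℕ) (x y : ℕ) :
    upMu M t cf mu x y = if x / M + y / M < 3 then
      (x / M + y / M) * M + mu (t (y / M * M + x % M)) (y % M)
      else (x / M + y / M - 3) * M + cf (mu (t (y / M * M + x % M)) (y % M)) := by
  simp only [upMu, force_eq, ite'_eq, blt_iff]
  rfl

/-- the extended table -/
noncomputable def up (T : Tab) (n : ℕ) (t cf iv : ℕ → ℕ) : Tab := ⟨n, upMu T.n t cf T.mu, iv⟩

/-- data checked for an extension -/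
structure UpOK (T : Tab) (n : ℕ) (t cf iv : ℕ → ℕ) (c : ℕ) (gs : List ℕ) : Prop where
  hn : n = 3 * T.n
  h0 : ∀ x < T.n, t x = x
  lt : ∀ x < T.n, t (T.n + x) < T.n
  h2 : ∀ x < T.n, t (2 * T.n + x) = t (T.n + t (T.n + x))
  f0 : t (T.n + 0) = 0
  gl : ∀ k ∈ gs, k < T.n
  hf : ∀ k ∈ gs, ∀ x < T.n, t (T.n + T.mu k x) = T.mu (t (T.n + k)) (t (T.n + x))
  gen : ∀ x < T.n, x = 0 ∨ ∃ k ∈ gs, ∃ y < x, T.mu k y = x
  cl : c < T.n
  hc : t (T.n + c) = c
  h3 : ∀ x < T.n, T.mu c (t (T.n + t (2 * T.n + x))) = T.mu x c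
  hcf : ∀ x < T.n, cf x = T.mu c x
  ivlt : ∀ x < n, iv x < n
  iv_mu : ∀ x < n, upMu T.n t cf T.mu (iv x) x = 0

section
variable {T : Tab} [hT : Fact T.OK] {n : ℕ} {t cf iv : ℕ → ℕ} {c : ℕ} {gs : List ℕ}

theorem e_val {i : ℕ} (h : i < T.n) : (TG.e i : TG T).v = i := Nat.mod_eq_of_lt h

theorem mul_v (a b : TG T) : (a * b).v = T.mu a.v b.v := rfl

theorem tg_ind (h1 : ∀ k ∈ gs, k < T.n) (h : ∀ x < T.n, x = 0 ∨ ∃ k ∈ gs, ∃ y < x, T.mu k y = x)
    {p : TG T → Prop} (p1 : p 1) (pm : ∀ k ∈ gs, ∀ y, p y → p (TG.e k * y)) (x : TG T) : p x := by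
  induction hx : x.v using Nat.strong_induction_on generalizing x with
  | _ m ih =>
    rcases h _ x.lt with h0 | ⟨k, hk, y, hy, e⟩
    · exact (TG.ext h0 : x = 1) ▸ p1
    · have : x = TG.e k * ⟨y, hy.trans x.lt⟩ := TG.ext (by rw [mul_v, e_val (h1 k hk)]; exact e.symm)
      rw [this]
      exact pm k hk _ (ih y (hx ▸ hy) _ rfl)

/-- the automorphism -/
noncomputable def UpOK.f (h : UpOK T n t cf iv c gs) : TG T →* TG T :=
  MonoidHom.mk' (fun x => ⟨t (T.n + x.v), h.lt _ x.lt⟩) (by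
    intro x
    refine tg_ind h.gl h.gen (p := fun x => ∀ y : TG T, (⟨t (T.n + (x * y).v), h.lt _ (x * y).lt⟩ : TG T) =
      ⟨t (T.n + x.v), h.lt _ x.lt⟩ * ⟨t (T.n + y.v), h.lt _ y.lt⟩) (fun y => ?_) (fun k hk z ih y => ?_) x
    · have : (⟨t (T.n + (1 : TG T).v), h.lt _ (1 : TG T).lt⟩ : TG T) = 1 := TG.ext h.f0
      rw [this, one_mul, one_mul]
    · have key : ∀ w : TG T, (⟨t (T.n + (TG.e k * w).v), h.lt _ (TG.e k * w).lt⟩ : TG T) =
          ⟨t (T.n + k), h.lt _ (h.gl k hk)⟩ * ⟨t (T.n + w.v), h.lt _ w.lt⟩ := fun w => TG.ext (by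
        change t (T.n + T.mu (TG.e k : TG T).v w.v) = _
        rw [e_val (h.gl k hk)]; exact h.hf k hk _ w.lt)
      rw [mul_assoc, key, key, ih, mul_assoc])

theorem UpOK.f_v (h : UpOK T n t cf iv c gs) (x : TG T) : (h.f x).v = t (T.n + x.v) := rfl

theorem UpOK.t_eq (h : UpOK T n t cf iv c gs) {b : ℕ} (hb : b < 3) (x : TG T) :
    t (b * T.n + x.v) = (h.f^[b] x).v := by
  interval_cases b
  · simpa using h.h0 _ x.lt
  · simp [h.f_v]
  · simp [h.f_v, h.h2 _ x.lt]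

theorem UpOK.fc (h : UpOK T n t cf iv c gs) : h.f (TG.e c) = TG.e c :=
  TG.ext (by rw [h.f_v, e_val h.cl, h.hc])

theorem UpOK.f3 (h : UpOK T n t cf iv c gs) (x : TG T) :
    TG.e c * h.f (h.f (h.f x)) = x * TG.e c :=
  TG.ext (by rw [mul_v, mul_v, h.f_v, h.f_v, h.f_v, e_val h.cl, ← h.h2 _ x.lt, h.h3 _ x.lt])

theorem UpOK.mu_eq (h : UpOK T n t cf iv c gs) {a b : ℕ} (ha : a < 3) (hb : b < 3) (x y : TG T) :
    upMu T.n t cf T.mu (a * T.n + x.v) (b * T.n + y.v) =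
      (a + b) % 3 * T.n + ((TG.e c : TG T) ^ ((a + b) / 3) * h.f^[b] x * y).v := by
  have hp := hT.out.pos
  have d : ∀ (a : ℕ) (x : TG T), (a * T.n + x.v) / T.n = a := fun a x => by
    rw [add_comm, Nat.add_mul_div_right _ _ hp, Nat.div_eq_of_lt x.lt, zero_add]
  have m : ∀ (a : ℕ) (x : TG T), (a * T.n + x.v) % T.n = x.v := fun a x => by
    rw [add_comm, Nat.add_mul_mod_self_right, Nat.mod_eq_of_lt x.lt]
  rw [upMu_eq, d, d, m, m, h.t_eq hb, ← mul_v]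
  split_ifs with hs
  · rw [Nat.mod_eq_of_lt hs, Nat.div_eq_of_lt hs, pow_zero, one_mul]
  · rw [show (a + b) % 3 = a + b - 3 by omega, show (a + b) / 3 = 1 by omega, pow_one, mul_assoc,
      h.hcf _ (TG.lt _), mul_v (TG.e c), e_val h.cl]

theorem UpOK.split (h : UpOK T n t cf iv c gs) {u : ℕ} (hu : u < n) :
    ∃ a < 3, ∃ x : TG T, u = a * T.n + x.v :=
  ⟨u / T.n, by rw [Nat.div_lt_iff_lt_mul hT.out.pos, ← h.hn]; exact hu,
    ⟨u % T.n, Nat.mod_lt _ hT.out.pos⟩, (Nat.div_add_mod' _ _).symm⟩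

theorem UpOK.ok (h : UpOK T n t cf iv c gs) : (up T n t cf iv).OK := by
  have hp := hT.out.pos
  refine ⟨by change 0 < n; rw [h.hn]; omega, fun u hu v hv => ?_, h.ivlt, fun u hu v hv w hw => ?_,
    fun u hu => ?_, h.iv_mu⟩
  · obtain ⟨a, ha, x, rfl⟩ := h.split hu
    obtain ⟨b, hb, y, rfl⟩ := h.split hv
    change upMu _ _ _ _ _ _ < n
    rw [h.mu_eq ha hb]
    have h4 := h.hn
    have := ((TG.e c : TG T) ^ ((a + b) / 3) * h.f^[b] x * y).lt
    have h3 : (a + b) % 3 ≤ 2 := by omega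
    nlinarith
  · obtain ⟨a, ha, x, rfl⟩ := h.split hu
    obtain ⟨b, hb, y, rfl⟩ := h.split hv
    obtain ⟨d, hd, z, rfl⟩ := h.split hw
    change upMu _ _ _ _ (upMu _ _ _ _ _ _) _ = upMu _ _ _ _ _ (upMu _ _ _ _ _ _)
    rw [h.mu_eq ha hb, h.mu_eq hb hd, h.mu_eq (Nat.mod_lt _ (by norm_num)) hd,
      h.mu_eq ha (Nat.mod_lt _ (by norm_num))]
    have k3 : ∀ (x w : TG T), x * (TG.e c * w) = TG.e c * (h.f (h.f (h.f x)) * w) := fun x w => by
      rw [← mul_assoc, ← h.f3, mul_assoc]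
    congr 1
    · congr 1; omega
    · congr 1
      interval_cases a <;> interval_cases b <;> interval_cases d <;>
        simp [h.fc, mul_assoc, k3 x, k3 (h.f x)]
  · obtain ⟨a, ha, x, rfl⟩ := h.split hu
    have := h.mu_eq (a := 0) (by norm_num) ha 1 x
    have e1 : h.f^[a] 1 = 1 := Function.iterate_fixed (map_one _) a
    rw [e1, zero_add, Nat.mod_eq_of_lt ha, Nat.div_eq_of_lt ha, pow_zero, one_mul, one_mul] at this
    rw [zero_mul, zero_add] at this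
    exact this

/-- the universal property of the extension -/
theorem UpOK.hom (h : UpOK T n t cf iv c gs) [Fact (up T n t cf iv).OK] {K : Type*} [Group K]
    (φ : TG T →* K) (g : K) (h1 : ∀ k ∈ gs, φ (TG.e k) * g = g * φ (TG.e (t (T.n + k))))
    (h2 : g ^ 3 = φ (TG.e c)) :
    ∃ ψ : TG (up T n t cf iv) →* K, ∀ a < 3, ∀ (x : TG T) (u : TG (up T n t cf iv)),
      u.v = a * T.n + x.v → ψ u = g ^ a * φ x := by
  have hp := hT.out.pos
  have k1 : ∀ x, φ x * g = g * φ (h.f x) := tg_ind h.gl h.gen (by simp) fun k hk y ih => by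
    have : h.f (TG.e k) = TG.e (t (T.n + k)) :=
      TG.ext (by rw [h.f_v, e_val (h.gl k hk), e_val (h.lt _ (h.gl k hk))])
    rw [map_mul, mul_assoc, ih, ← mul_assoc, h1 k hk, map_mul, map_mul, this, mul_assoc]
  have k2 : ∀ b x, φ x * g ^ b = g ^ b * φ (h.f^[b] x) := fun b => by
    induction b with
    | zero => simp
    | succ b ih => intro x; rw [pow_succ, ← mul_assoc, ih, mul_assoc, k1, Function.iterate_succ_apply', mul_assoc]
  have sp : ∀ (a : ℕ) (x : TG T), g ^ ((a * T.n + x.v) / T.n) * φ (TG.e ((a * T.n + x.v) % T.n)) =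
      g ^ a * φ x := fun a x => by
    rw [add_comm, Nat.add_mul_div_right _ _ hp, Nat.div_eq_of_lt x.lt, zero_add,
      Nat.add_mul_mod_self_right, Nat.mod_eq_of_lt x.lt, TG.e_v]
  refine ⟨MonoidHom.mk' (fun u => g ^ (u.v / T.n) * φ (TG.e (u.v % T.n))) fun u v => ?_,
    fun a _ x u hu => by simp only [MonoidHom.mk'_apply]; rw [hu, sp]⟩
  obtain ⟨a, ha, x, hu⟩ := h.split u.lt
  obtain ⟨b, hb, y, hv⟩ := h.split v.lt
  have : (u * v).v = _ := (congrArg₂ (upMu T.n t cf T.mu) hu hv).trans (h.mu_eq ha hb x y)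
  rw [this, hu, hv, sp, sp, sp, map_mul, map_mul, map_pow, ← h2, ← pow_mul, ← mul_assoc, ← mul_assoc,
    ← pow_add, Nat.mod_add_div, pow_add, mul_assoc (g ^ a), ← k2]
  simp only [mul_assoc]

end

theorem ok_congr {T : Tab} (h : T.OK) {mu : ℕ → ℕ → ℕ} (e : ∀ a < T.n, ∀ b < T.n, mu a b = T.mu a b) :
    (⟨T.n, mu, T.iv⟩ : Tab).OK :=
  ⟨h.pos, fun a ha b hb => by rw [show Tab.mu _ a b = mu a b from rfl, e a ha b hb]; exact h.lt a ha b hb,
    h.ivlt, fun a ha b hb c hc => by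
      change mu (mu a b) c = mu a (mu b c)
      rw [e a ha b hb, e b hb c hc, e _ (h.lt a ha b hb) c hc, e a ha _ (h.lt b hb c hc), h.assoc a ha b hb c hc],
    fun a ha => by change mu 0 a = a; rw [e 0 h.pos a ha, h.one_mu a ha],
    fun a ha => by change mu (T.iv a) a = 0; rw [e _ (h.ivlt a ha) a ha, h.iv_mu a ha]⟩

/-- the boolean check -/
noncomputable def upChk (T : Tab) (n : ℕ) (t cf : ℕ → ℕ) (c : ℕ) (gs : List ℕ) : Bool :=
  and' (and' (Nat.beq n (Nat.mul 3 T.n)) (and' (Nat.beq (t (Nat.add T.n 0)) 0) (and' (Nat.blt c T.n)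
    (and' (Nat.beq (t (Nat.add T.n c)) c) (allL gs fun k => Nat.blt k T.n)))))
  (allB T.n fun x => force (t (Nat.add T.n x)) fun fx => force (t (Nat.add (Nat.mul 2 T.n) x)) fun gx =>
    and' (Nat.beq (t x) x) (and' (Nat.blt fx T.n) (and' (Nat.beq gx (t (Nat.add T.n fx)))
      (and' (Nat.beq (T.mu c (t (Nat.add T.n gx))) (T.mu x c)) (and' (Nat.beq (cf x) (T.mu c x))
        (or' (Nat.beq x 0) (anyL gs fun k => and' (Nat.ble k x) (and' (Nat.blt 0 k)
            (Nat.beq (T.mu k (Nat.sub x k)) x)))))))))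

noncomputable def hfChk (T : Tab) (t : ℕ → ℕ) (gs : List ℕ) : Bool :=
  allL gs fun k => force (t (Nat.add T.n k)) fun fk => allB T.n fun x =>
    Nat.beq (t (Nat.add T.n (T.mu k x))) (T.mu fk (t (Nat.add T.n x)))

noncomputable def ivChk (T : Tab) (n : ℕ) (t cf iv : ℕ → ℕ) : Bool :=
  allB n fun x => force (iv x) fun y => and' (Nat.blt y n) (Nat.beq (upMu T.n t cf T.mu y x) 0)

theorem hfChk_cons {T : Tab} {t : ℕ → ℕ} {k : ℕ} {gs : List ℕ} (h1 : hfChk T t [k] = true)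
    (h2 : hfChk T t gs = true) : hfChk T t (k :: gs) = true := by
  simp only [hfChk, allL_iff, List.forall_mem_cons] at h1 h2 ⊢
  exact ⟨h1.1, h2⟩

theorem upOK_of {T : Tab} {n : ℕ} {t cf iv : ℕ → ℕ} {c : ℕ} {gs : List ℕ}
    (h : upChk T n t cf c gs = true) (h' : hfChk T t gs = true) (d : ivChk T n t cf iv = true) :
    UpOK T n t cf iv c gs := by
  simp only [upChk, hfChk, ivChk, allB_iff, force_eq, and'_eq_true, or'_eq_true, allL_iff, anyL_iff,
    blt_iff, beq_iff, Nat.ble_eq] at h h' d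
  obtain ⟨⟨a1, a2, a3, a4, a5⟩, b⟩ := h
  refine ⟨a1, fun x hx => (b x hx).1, fun x hx => (b x hx).2.1, fun x hx => (b x hx).2.2.1, a2, a5,
    h', fun x hx => ?_, a3, a4, fun x hx => (b x hx).2.2.2.1,
    fun x hx => (b x hx).2.2.2.2.1, fun x hx => (d x hx).1, fun x hx => (d x hx).2⟩
  rcases (b x hx).2.2.2.2.2 with h | ⟨k, hk, h1, h2, h3⟩
  · exact Or.inl h
  · exact Or.inr ⟨k, hk, x - k, by omega, h3⟩

end Cfsg.Agent.T3F
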