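import Cfsg.Agent.T3F.Dat

/-! The maximal subgroup `E1` of the Sylow 3-subgroup of the Thompson group.  The element with number `n`
(base 3 digits `a b c d f g h i k l`, most significant first) is
`y^a e3^b e2^c e0^d e1^f j5^g z4^h z3^i z2^k z1^l`. -/

set_option autoImplicit false
set_option maxRecDepth 100000
set_option Elab.async false

namespace Cfsg.Agent.T3F

open Cfsg.Agent.Comp Cfsg.Agent.X32

noncomputable def B0 : Tab := ⟨nat_lit 1, fun _ _ => nat_lit 0, fun _ => nat_lit 0⟩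
noncomputable def B1 : Tab := up B0 (nat_lit 3) (fun i => Nat.mod i (nat_lit 1)) id ivf
noncomputable def B2 : Tab := up B1 (nat_lit 9) (fun i => Nat.mod i (nat_lit 3)) id ivf
noncomputable def B3 : Tab := up B2 (nat_lit 27) (fun i => Nat.mod i (nat_lit 9)) id ivf
noncomputable def B4 : Tab := up B3 (nat_lit 81) (fun i => Nat.mod i (nat_lit 27)) id ivf
noncomputable def B5 : Tab := up B4 (nat_lit 243) (fun i => Nat.mod i (nat_lit 81)) id ivf
noncomputable def adJ (x y : ℕ) : ℕ := cA (Nat.add (Nat.mul x (nat_lit 243)) y)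
noncomputable def A5 : Tab := ⟨B5.n, adJ, B5.iv⟩
noncomputable def A6 : Tab := up A5 (nat_lit 729) c4 (adJ (nat_lit 2)) ivf
noncomputable def A7 : Tab := up A6 (nat_lit 2187) c3 id ivf
noncomputable def A8 : Tab := up A7 (nat_lit 6561) c2 (A7.mu (nat_lit 6)) ivf
noncomputable def A9 : Tab := up A8 (nat_lit 19683) c1 id ivf

theorem u1 : UpOK B0 3 (fun i => Nat.mod i (nat_lit 1)) id ivf 0 [] := upOK_of (by decide +kernel) (by decide +kernel) (by decide +kernel)
theorem u2 : UpOK B1 9 (fun i => Nat.mod i (nat_lit 3)) id ivf 0 [1] := upOK_of (by decide +kernel) (by decide +kernel) (by decide +kernel)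
theorem u3 : UpOK B2 27 (fun i => Nat.mod i (nat_lit 9)) id ivf 0 [3, 1] := upOK_of (by decide +kernel) (by decide +kernel) (by decide +kernel)
theorem u4 : UpOK B3 81 (fun i => Nat.mod i (nat_lit 27)) id ivf 0 [9, 3, 1] := upOK_of (by decide +kernel) (by decide +kernel) (by decide +kernel)
theorem u5 : UpOK B4 243 (fun i => Nat.mod i (nat_lit 81)) id ivf 0 [27, 9, 3, 1] :=
  upOK_of (by decide +kernel) (by decide +kernel) (by decide +kernel)
theorem adJ_eq : ∀ a < B5.n, ∀ b < B5.n, adJ a b = B5.mu a b := by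
  have : (allB B5.n fun a => allB B5.n fun b => Nat.beq (adJ a b) (B5.mu a b)) = true := by decide +kernel
  simpa only [allB_iff, beq_iff] using this
theorem u6 : UpOK A5 729 c4 (adJ (nat_lit 2)) ivf 2 [81, 27, 9, 3, 1] := upOK_of (by decide +kernel) (by decide +kernel) (by decide +kernel)
theorem u7 : UpOK A6 2187 c3 id ivf 0 [243, 81, 27, 9, 3, 1] := upOK_of (by decide +kernel) (by decide +kernel) (by decide +kernel)
theorem u8 : UpOK A7 6561 c2 (A7.mu (nat_lit 6)) ivf 6 [729, 243, 81, 27, 9, 3, 1] :=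
  upOK_of (by decide +kernel) (by decide +kernel) (by decide +kernel)
theorem u9a : hfChk A8 c1 [27, 9, 3, 1] = true := by decide +kernel
theorem u9 : UpOK A8 19683 c1 id ivf 0 [2187, 729, 243, 81, 27, 9, 3, 1] :=
  upOK_of (by decide +kernel) (hfChk_cons (by decide +kernel) (hfChk_cons (by decide +kernel)
    (hfChk_cons (by decide +kernel) (hfChk_cons (by decide +kernel) u9a)))) (by decide +kernel)

instance f0 : Fact B0.OK := ⟨⟨by decide, by decide, by decide, by decide, by decide, by decide⟩⟩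
instance f1 : Fact B1.OK := ⟨u1.ok⟩
instance f2 : Fact B2.OK := ⟨u2.ok⟩
instance f3 : Fact B3.OK := ⟨u3.ok⟩
instance f4 : Fact B4.OK := ⟨u4.ok⟩
instance f5 : Fact B5.OK := ⟨u5.ok⟩
instance f5' : Fact A5.OK := ⟨ok_congr f5.out adJ_eq⟩
instance f6 : Fact A6.OK := ⟨u6.ok⟩
instance f7 : Fact A7.OK := ⟨u7.ok⟩
instance f8 : Fact A8.OK := ⟨u8.ok⟩
instance f9 : Fact A9.OK := ⟨u9.ok⟩

end Cfsg.Agent.T3F
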